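import Mathlib

/-! Numeric codes for even permutations of at most sixteen points, and formal sums of them. -/

set_option autoImplicit false

namespace CfsgLib.GA

/-- digit `i` (base 16) of `c` -/
def app (c i : ℕ) : ℕ := Nat.mod (Nat.shiftRight c (Nat.mul 4 i)) 16

/-- the number with base 16 digits `f 0, …, f (n-1)` -/
def enc (f : ℕ → ℕ) (n : ℕ) : ℕ :=
  Nat.rec 0 (fun k acc => Nat.add acc (Nat.shiftLeft (f k) (Nat.mul 4 k))) n

def mulc (n a b : ℕ) : ℕ := enc (fun i => app a (app b i)) n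

theorem app_eq (c i : ℕ) : app c i = c / 16 ^ i % 16 := by
  show (c >>> (4 * i)) % 16 = _
  rw [Nat.shiftRight_eq_div_pow, pow_mul]; norm_num

theorem enc_zero (f : ℕ → ℕ) : enc f 0 = 0 := rfl

theorem enc_succ (f : ℕ → ℕ) (k : ℕ) : enc f (k + 1) = enc f k + f k * 16 ^ k := by
  show enc f k + (f k <<< (4 * k)) = _
  rw [Nat.shiftLeft_eq, pow_mul]; norm_num

theorem enc_congr {f g : ℕ → ℕ} : ∀ n, (∀ i < n, f i = g i) → enc f n = enc g n
  | 0, _ => rfl
  | n + 1, h => by
    rw [enc_succ, enc_succ, enc_congr n fun i hi => h i (by omega), h n (by omega)]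

theorem enc_lt {f : ℕ → ℕ} : ∀ n, (∀ i < n, f i < 16) → enc f n < 16 ^ n
  | 0, _ => by simp [enc_zero]
  | n + 1, h => by
    have h1 := enc_lt n fun i hi => h i (by omega)
    have h2 : f n ≤ 15 := by have := h n (by omega); omega
    have h3 : f n * 16 ^ n ≤ 15 * 16 ^ n := Nat.mul_le_mul_right _ h2
    rw [enc_succ, pow_succ]; omega

theorem app_enc {f : ℕ → ℕ} : ∀ n, (∀ i < n, f i < 16) → ∀ i < n, app (enc f n) i = f i
  | 0, _, i, hi => by omega
  | n + 1, h, i, hi => by
    have h' : ∀ i < n, f i < 16 := fun i hi => h i (by omega)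
    rw [enc_succ]
    rcases Nat.lt_succ_iff_lt_or_eq.1 hi with hi | rfl
    · rw [← app_enc n h' i hi, app_eq, app_eq]
      obtain ⟨d, rfl⟩ := Nat.exists_eq_add_of_lt hi
      have : f (i + d + 1) * 16 ^ (i + d + 1) = 16 ^ i * (16 * (f (i + d + 1) * 16 ^ d)) := by ring
      rw [this, Nat.add_mul_div_left _ _ (by positivity), Nat.add_mul_mod_self_left]
    · rw [app_eq, Nat.add_mul_div_right _ _ (by positivity), Nat.div_eq_of_lt (enc_lt i h'), zero_add,
        Nat.mod_eq_of_lt (h i (by omega))]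

variable {n : ℕ}

def pf (g : alternatingGroup (Fin n)) (i : ℕ) : ℕ :=
  if h : i < n then ((g : Equiv.Perm (Fin n)) ⟨i, h⟩ : ℕ) else 0

def code (g : alternatingGroup (Fin n)) : ℕ := enc (pf g) n

theorem pf_lt (g : alternatingGroup (Fin n)) {i : ℕ} (hi : i < n) : pf g i < n := by
  simp [pf, hi]

theorem app_code (hn : n ≤ 16) (g : alternatingGroup (Fin n)) {i : ℕ} (hi : i < n) :
    app (code g) i = pf g i :=
  app_enc n (fun j hj => (pf_lt g hj).trans_le hn) i hi

theorem code_mul (hn : n ≤ 16) (g h : alternatingGroup (Fin n)) :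
    code (g * h) = mulc n (code g) (code h) := by
  refine enc_congr n fun i hi => ?_
  rw [app_code hn h hi, app_code hn g (pf_lt h hi)]
  simp [pf, hi]

theorem code_inj (hn : n ≤ 16) : Function.Injective (code (n := n)) := by
  intro g h e
  ext i
  have h1 := app_code hn g i.2
  rw [e, app_code hn h i.2] at h1
  simpa [pf] using h1.symm

def sw (a b i : ℕ) : ℕ := bif Nat.beq i a then b else bif Nat.beq i b then a else i

def okg (n x : ℕ) : Bool :=
  Nat.blt (app x 0) n && Nat.blt (app x 1) n && Nat.blt (app x 2) n && Nat.blt (app x 3) n &&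
    !Nat.beq (app x 0) (app x 1) && !Nat.beq (app x 2) (app x 3)

theorem okg_iff {x : ℕ} : okg n x = true ↔
    app x 0 < n ∧ app x 1 < n ∧ app x 2 < n ∧ app x 3 < n ∧ app x 0 ≠ app x 1 ∧ app x 2 ≠ app x 3 := by
  have hb : ∀ a b : ℕ, Nat.beq a b = false ↔ a ≠ b := fun a b => by
    rw [Bool.eq_false_iff]; exact not_congr ⟨Nat.eq_of_beq_eq_true, fun e => e ▸ Nat.beq_refl a⟩
  simp [okg, Nat.blt_eq, and_assoc, hb]

/-- the generator with index `x`: a product of two transpositions -/
def gen (n x : ℕ) : alternatingGroup (Fin n) :=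
  if h : okg n x = true then
    ⟨Equiv.swap ⟨app x 0, (okg_iff.1 h).1⟩ ⟨app x 1, (okg_iff.1 h).2.1⟩ *
      Equiv.swap ⟨app x 2, (okg_iff.1 h).2.2.1⟩ ⟨app x 3, (okg_iff.1 h).2.2.2.1⟩, by
      rw [Equiv.Perm.mem_alternatingGroup, map_mul, Equiv.Perm.sign_swap, Equiv.Perm.sign_swap]
      · simp
      · exact fun e => (okg_iff.1 h).2.2.2.2.2 (congrArg Fin.val e)
      · exact fun e => (okg_iff.1 h).2.2.2.2.1 (congrArg Fin.val e)⟩
  else 1

def onec (n : ℕ) : ℕ := enc (fun i => i) n

def genc (n x : ℕ) : ℕ :=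
  bif okg n x then enc (fun i => sw (app x 0) (app x 1) (sw (app x 2) (app x 3) i)) n else onec n

theorem code_one : code (1 : alternatingGroup (Fin n)) = onec n :=
  enc_congr n fun i hi => by simp [pf, hi]

theorem swap_val (a b i : Fin n) : ((Equiv.swap a b i : Fin n) : ℕ) = sw a b i := by
  rw [Equiv.swap_apply_def]
  unfold sw
  by_cases h1 : i = a
  · simp [h1]
  · have h1' : Nat.beq i a = false := by
      rw [Bool.eq_false_iff]; intro e; exact h1 (Fin.ext (Nat.eq_of_beq_eq_true e))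
    by_cases h2 : i = b
    · subst h2; simp [h1, h1']
    · have h2' : Nat.beq i b = false := by
        rw [Bool.eq_false_iff]; intro e; exact h2 (Fin.ext (Nat.eq_of_beq_eq_true e))
      simp [h1, h2, h1', h2']

theorem code_gen (x : ℕ) : code (gen n x) = genc n x := by
  unfold gen genc
  by_cases h : okg n x = true
  · rw [dif_pos h, h, cond_true]
    refine enc_congr n fun i hi => ?_
    simp only [pf, dif_pos hi, Equiv.Perm.mul_apply, swap_val]
  · rw [dif_neg h, code_one]
    simp [h]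

/-- words in the generators -/
def gw (n : ℕ) (w : List ℕ) : alternatingGroup (Fin n) := (w.map (gen n)).prod

def cw (n : ℕ) (w : List ℕ) : ℕ := List.rec (onec n) (fun x _ acc => mulc n (genc n x) acc) w

theorem code_gw (hn : n ≤ 16) : ∀ w, code (gw n w) = cw n w
  | [] => code_one
  | x :: w => by
    have : gw n (x :: w) = gen n x * gw n w := by simp [gw]
    rw [this, code_mul hn, code_gen, code_gw hn w]; rfl

theorem gw_append (u w : List ℕ) : gw n (u ++ w) = gw n u * gw n w := by simp [gw]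

theorem gw_eq_of_cw (hn : n ≤ 16) {u w : List ℕ} (h : cw n u = cw n w) : gw n u = gw n w :=
  code_inj hn (by rw [code_gw hn, code_gw hn, h])

open Classical in
noncomputable def dec (n c : ℕ) : alternatingGroup (Fin n) :=
  if h : ∃ g : alternatingGroup (Fin n), code g = c then h.choose else 1

theorem dec_code (hn : n ≤ 16) (g : alternatingGroup (Fin n)) : dec n (code g) = g := by
  have h : ∃ g' : alternatingGroup (Fin n), code g' = code g := ⟨g, rfl⟩
  unfold dec
  rw [dif_pos h]
  exact code_inj hn h.choose_spec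

/-- force evaluation of a numeral before going on -/
def frc {α : Type} (k : ℕ) (f : ℕ → α) : α := Nat.rec (f 0) (fun m _ => f (Nat.succ m)) k

theorem frc_eq {α : Type} (k : ℕ) (f : ℕ → α) : frc k f = f k := by cases k <;> rfl

inductive Tr
  | leaf
  | node (l : Tr) (k c : ℕ) (r : Tr)

noncomputable def Tr.ins (k c : ℕ) (t : Tr) : (Tr → Bool) → Bool :=
  Tr.rec (fun f => f (Tr.node Tr.leaf k c Tr.leaf))
    (fun l k' c' r il ir f =>
      bif Nat.blt k k' then il (fun l' => f (Tr.node l' k' c' r))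
      else bif Nat.blt k' k then ir (fun r' => f (Tr.node l k' c' r'))
      else frc (Nat.add c c') fun s => f (Tr.node l k' s r)) t

noncomputable def Tr.allZ (p : ℕ) (t : Tr) : Bool :=
  Tr.rec true (fun _ _ c _ il ir => Nat.beq (Nat.mod c p) 0 && il && ir) t

noncomputable def insAll (p : ℕ) (l : List (ℕ × ℕ)) : Tr → Bool :=
  List.rec (fun t => t.allZ p)
    (fun x _ ih t => frc x.2 fun k => frc x.1 fun c => Tr.ins k c t ih) l

section Sum
variable {V : Type*} [AddCommGroup V]

def Tr.sum (φ : ℕ → V) : Tr → V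
  | .leaf => 0
  | .node l k c r => l.sum φ + c • φ k + r.sum φ

theorem Tr.ins_spec (φ : ℕ → V) (k c : ℕ) : ∀ (t : Tr) (f : Tr → Bool),
    ∃ t', Tr.ins k c t f = f t' ∧ t'.sum φ = t.sum φ + c • φ k
  | .leaf, f => ⟨_, rfl, by simp [Tr.sum]⟩
  | .node l k' c' r, f => by
    have e : Tr.ins k c (.node l k' c' r) f =
        bif Nat.blt k k' then Tr.ins k c l (fun l' => f (Tr.node l' k' c' r))
        else bif Nat.blt k' k then Tr.ins k c r (fun r' => f (Tr.node l k' c' r'))
        else frc (Nat.add c c') fun s => f (Tr.node l k' s r) := rfl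
    rw [e]
    by_cases h1 : k < k'
    · rw [Nat.blt_eq.mpr h1, cond_true]
      obtain ⟨t', h, hs⟩ := Tr.ins_spec φ k c l (fun l' => f (Tr.node l' k' c' r))
      exact ⟨_, h, by simp only [Tr.sum, hs]; abel⟩
    · rw [Bool.eq_false_iff.2 (fun h => h1 (Nat.blt_eq.mp h)), cond_false]
      by_cases h2 : k' < k
      · rw [Nat.blt_eq.mpr h2, cond_true]
        obtain ⟨t', h, hs⟩ := Tr.ins_spec φ k c r (fun r' => f (Tr.node l k' c' r'))
        exact ⟨_, h, by simp only [Tr.sum, hs]; abel⟩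
      · rw [Bool.eq_false_iff.2 (fun h => h2 (Nat.blt_eq.mp h)), cond_false, frc_eq]
        obtain rfl : k = k' := by omega
        refine ⟨_, rfl, ?_⟩
        show l.sum φ + (c + c') • φ k + r.sum φ = l.sum φ + c' • φ k + r.sum φ + c • φ k
        rw [add_nsmul]; abel

theorem Tr.sum_eq_zero (φ : ℕ → V) {p : ℕ} (hp : ∀ v : V, p • v = 0) :
    ∀ t : Tr, t.allZ p = true → t.sum φ = 0
  | .leaf, _ => rfl
  | .node l k c r, h => by
    have e : Tr.allZ p (.node l k c r) = (Nat.beq (Nat.mod c p) 0 && l.allZ p && r.allZ p) := rfl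
    rw [e, Bool.and_eq_true, Bool.and_eq_true] at h
    obtain ⟨d, rfl⟩ : p ∣ c := Nat.dvd_of_mod_eq_zero (Nat.eq_of_beq_eq_true h.1.1)
    simp only [Tr.sum, Tr.sum_eq_zero φ hp l h.1.2, Tr.sum_eq_zero φ hp r h.2, mul_smul, hp, add_zero]

theorem insAll_spec (φ : ℕ → V) {p : ℕ} (hp : ∀ v : V, p • v = 0) :
    ∀ (l : List (ℕ × ℕ)) (t : Tr), insAll p l t = true →
      t.sum φ + (l.map fun x => x.1 • φ x.2).sum = 0
  | [], t, h => by simpa using Tr.sum_eq_zero φ hp t h
  | x :: l, t, h => by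
    have e : insAll p (x :: l) t = frc x.2 fun k => frc x.1 fun c => Tr.ins k c t (insAll p l) := rfl
    rw [e, frc_eq, frc_eq] at h
    obtain ⟨t', h', hs⟩ := Tr.ins_spec φ x.2 x.1 t (insAll p l)
    rw [h'] at h
    have := insAll_spec φ hp l t' h
    rw [hs] at this
    rw [List.map_cons, List.sum_cons, ← add_assoc, this]

end Sum

end CfsgLib.GA
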