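import Cfsg.Agent.Lib.GA.A10

/-! The statement for the symmetric group of degree ten. -/

set_option autoImplicit false

namespace CfsgLib.GA.Five

theorem eq_zero {W : Type*} [AddCommGroup W] [DistribMulAction (Equiv.Perm (Fin 10)) W]
    (h5 : ∀ v : W, 5 • v = 0)
    (h : ∀ K : Subgroup (Equiv.Perm (Fin 10)), ¬ Group.IsSolvable K → ∀ v : W, (∀ k ∈ K, k • v = v) → v = 0)
    (v : W) : v = 0 := by
  refine A10.eq_zero h5 (fun w hw => ?_) v
  by_contra hs
  refine hw (h ((MulAction.stabilizer (alternatingGroup (Fin 10)) w).map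
    (alternatingGroup (Fin 10)).subtype) (fun hs' => hs ?_) w ?_)
  · exact solvable_of_solvable_injective
      (f := (Subgroup.equivMapOfInjective _ _ (alternatingGroup (Fin 10)).subtype_injective).toMonoidHom)
      (MulEquiv.injective _)
  · rintro k ⟨g, hg, rfl⟩
    exact hg

end CfsgLib.GA.Five
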