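import Cfsg.Agent.Lib.GA.Enc

/-! A checker for vanishing arguments in modules of small alternating groups. -/

set_option autoImplicit false

namespace CfsgLib.GA

abbrev FS := List (ℕ × ℕ)
abbrev WS := List (ℕ × List ℕ)
abbrev Cert := List (WS × ℕ)
abbrev Fct := List WS × WS

def toFS (n : ℕ) (x : WS) : FS := x.map fun a => (a.1, cw n a.2)

def mulFS (n : ℕ) (l m : FS) : FS :=
  List.rec [] (fun a _ acc =>
    List.rec acc (fun b _ acc' => (Nat.mul a.1 b.1, mulc n a.2 b.2) :: acc') m) l

def negFS (p : ℕ) (l : FS) : FS := l.map fun a => (Nat.mul a.1 (Nat.pred p), a.2)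

noncomputable def isZ (p : ℕ) (l : FS) : Bool := insAll p l Tr.leaf

def certFS (n : ℕ) (R : List FS) (c : Cert) (acc : FS) : FS :=
  List.rec acc (fun a _ acc' => mulFS n (toFS n a.1) (R.getD a.2 []) ++ acc') c

noncomputable def chk (n p : ℕ) (R : List FS) (t : FS) (c : Cert) : Bool :=
  isZ p (certFS n R c (negFS p t))

/-- every `r * x` with `r` in `S` lies in the left ideal generated by `R` -/
noncomputable def chkAll (n p : ℕ) (R : List FS) (x : FS) (S : List FS) : List Cert → Bool :=
  List.rec (fun _ => true) (fun r _ ih cs => chk n p R (mulFS n r x) (cs.headD []) && ih cs.tail) S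

def oneFS (n : ℕ) : FS := [(1, onec n)]

def powW (g : List ℕ) (k : ℕ) : List ℕ := Nat.rec [] (fun _ acc => g ++ acc) k

inductive Prf
  | done (c : Cert)
  | lin (t : WS) (c : Cert) (nx : Prf)
  | use (i : ℕ) (x : WS) (cs : List Cert) (nx : Prf)
  | nil (g : List ℕ) (k : ℕ) (cs : List Cert) (nx : Prf)
  | idem (x : WS) (cs : List Cert) (c : Cert) (a b : Prf)

noncomputable def Prf.ok (n p : ℕ) (F : List Fct) (P : Prf) : List FS → FS → Bool :=
  Prf.rec
    (fun c R goal => chk n p R goal c)
    (fun t c _ ih R goal => chk n p R (toFS n t) c && ih (R ++ [toFS n t]) goal)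
    (fun i x cs _ ih R goal =>
      chkAll n p R (toFS n x) ((F.getD i ([], [])).1.map (toFS n)) cs &&
        ih (R ++ [mulFS n (toFS n (F.getD i ([], [])).2) (toFS n x)]) goal)
    (fun g k cs _ ih R _ =>
      Nat.beq (cw n (powW g (p ^ k))) (onec n) && chkAll n p R [(1, cw n g)] R cs &&
        ih (R ++ [[(1, cw n g), (Nat.pred p, onec n)]]) (oneFS n))
    (fun x cs c _ _ iha ihb R _ =>
      chkAll n p R (toFS n x) R cs &&
        chk n p R (mulFS n (toFS n x) (toFS n x) ++ negFS p (toFS n x)) c &&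
        iha (R ++ [toFS n x]) (oneFS n) && ihb (R ++ [oneFS n ++ negFS p (toFS n x)]) (oneFS n)) P

noncomputable def Fct.ok (n p : ℕ) (F : List Fct) (f : Fct) (P : Prf) : Bool :=
  P.ok n p F (f.1.map (toFS n)) (toFS n f.2)

variable {n p : ℕ} {V : Type*} [AddCommGroup V] [DistribMulAction (alternatingGroup (Fin n)) V]

def Val (n : ℕ) (l : FS) : Prop := ∀ a ∈ l, ∃ g : alternatingGroup (Fin n), code g = a.2

noncomputable def ev (n : ℕ) {V : Type*} [AddCommGroup V]
    [DistribMulAction (alternatingGroup (Fin n)) V] (l : FS) (v : V) : V :=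
  (l.map fun a => a.1 • (dec n a.2 • v)).sum

theorem ev_nil (v : V) : ev n [] v = 0 := rfl

theorem ev_cons (a : ℕ × ℕ) (l : FS) (v : V) :
    ev n (a :: l) v = a.1 • (dec n a.2 • v) + ev n l v := by simp [ev]

theorem ev_append (l m : FS) (v : V) : ev n (l ++ m) v = ev n l v + ev n m v := by simp [ev]

theorem ev_add (v w : V) : ∀ l : FS, ev n l (v + w) = ev n l v + ev n l w
  | [] => by simp [ev]
  | a :: l => by simp only [ev_cons, ev_add v w l, smul_add]; abel

theorem ev_zero : ∀ l : FS, ev n l (0 : V) = 0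
  | [] => rfl
  | a :: l => by simp only [ev_cons, ev_zero l, smul_zero, add_zero]

theorem ev_neg (l : FS) (v : V) : ev n l (-v) = -ev n l v := by
  rw [eq_neg_iff_add_eq_zero, ← ev_add, neg_add_cancel, ev_zero]

theorem ev_sub (l : FS) (v w : V) : ev n l (v - w) = ev n l v - ev n l w := by
  rw [sub_eq_add_neg, ev_add, ev_neg, sub_eq_add_neg]

theorem val_toFS (hn : n ≤ 16) (x : WS) : Val n (toFS n x) := by
  intro a ha
  obtain ⟨b, -, rfl⟩ := List.mem_map.1 ha
  exact ⟨_, code_gw hn _⟩

theorem val_nil : Val n [] := fun _ h => by simp at h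

theorem Val.append {l m : FS} (hl : Val n l) (hm : Val n m) : Val n (l ++ m) := fun a ha =>
  (List.mem_append.1 ha).elim (hl a) (hm a)

theorem Val.neg {l : FS} (hl : Val n l) : Val n (negFS p l) := by
  intro a ha
  obtain ⟨b, hb, rfl⟩ := List.mem_map.1 ha
  exact hl b hb

theorem val_one : Val n (oneFS n) := by
  intro a ha
  rw [oneFS, List.mem_singleton] at ha
  exact ⟨1, ha ▸ code_one⟩

theorem mulFS_cons (a : ℕ × ℕ) (l m : FS) :
    mulFS n (a :: l) m = (m.map fun b => (a.1 * b.1, mulc n a.2 b.2)) ++ mulFS n l m := by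
  have key : ∀ (acc m : FS), (List.rec acc (fun b _ acc' => (Nat.mul a.1 b.1, mulc n a.2 b.2) :: acc') m : FS) =
      (m.map fun b => (a.1 * b.1, mulc n a.2 b.2)) ++ acc := by
    intro acc m
    induction m with
    | nil => rfl
    | cons b m ih => exact congrArg (List.cons _) ih
  exact key _ m

theorem Val.mul (hn : n ≤ 16) {m : FS} (hm : Val n m) : ∀ {l : FS}, Val n l → Val n (mulFS n l m)
  | [], _ => val_nil
  | a :: l, hl => by
    rw [mulFS_cons]
    refine Val.append ?_ (Val.mul hn hm fun b hb => hl b (List.mem_cons_of_mem _ hb))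
    intro c hc
    obtain ⟨b, hb, rfl⟩ := List.mem_map.1 hc
    obtain ⟨g, hg⟩ := hl a List.mem_cons_self
    obtain ⟨h, hh⟩ := hm b hb
    exact ⟨g * h, by rw [code_mul hn, hg, hh]⟩

theorem ev_mul (hn : n ≤ 16) {m : FS} (hm : Val n m) (v : V) :
    ∀ {l : FS}, Val n l → ev n (mulFS n l m) v = ev n l (ev n m v)
  | [], _ => rfl
  | a :: l, hl => by
    rw [mulFS_cons, ev_append, ev_mul hn hm v fun b hb => hl b (List.mem_cons_of_mem _ hb), ev_cons]
    congr 1
    obtain ⟨g, hg⟩ := hl a List.mem_cons_self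
    clear hl
    induction m with
    | nil => simp [ev]
    | cons b m ih =>
      obtain ⟨h, hh⟩ := hm b List.mem_cons_self
      rw [List.map_cons, ev_cons, ev_cons, ih fun c hc => hm c (List.mem_cons_of_mem _ hc)]
      simp only [← hg, ← hh, ← code_mul hn, dec_code hn, smul_add, mul_smul, smul_comm g b.1]

theorem ev_negFS (hp : ∀ v : V, p • v = 0) (hp0 : p ≠ 0) (v : V) :
    ∀ l : FS, ev n (negFS p l) v = -ev n l v
  | [] => by simp [negFS, ev]
  | a :: l => by
    have ih := ev_negFS hp hp0 v l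
    unfold negFS at ih ⊢
    rw [List.map_cons, ev_cons, ev_cons, ih, neg_add]
    congr 1
    rw [eq_neg_iff_add_eq_zero, ← add_nsmul]
    obtain ⟨q, rfl⟩ := Nat.exists_eq_succ_of_ne_zero hp0
    show (a.1 * q + a.1) • _ = _
    rw [← Nat.mul_succ, mul_smul, hp, smul_zero]

theorem ev_one (hn : n ≤ 16) (v : V) : ev n (oneFS n) v = v := by
  simp [oneFS, ev, ← code_one, dec_code hn]

theorem ev_of_isZ (hp : ∀ v : V, p • v = 0) {l : FS} (h : isZ p l = true) (v : V) :
    ev n l v = 0 := by
  simpa [Tr.sum, ev] using insAll_spec (fun k => dec n k • v) hp l Tr.leaf h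

/-- the relations in `R` are valid and kill `v` -/
def Kills (n : ℕ) {V : Type*} [AddCommGroup V] [DistribMulAction (alternatingGroup (Fin n)) V]
    (R : List FS) (v : V) : Prop := ∀ r ∈ R, ev n r v = 0

theorem Kills.snoc {R : List FS} {v : V} (h : Kills n R v) {r : FS} (hr : ev n r v = 0) :
    Kills n (R ++ [r]) v := fun s hs =>
  (List.mem_append.1 hs).elim (h s) fun e => by rw [List.mem_singleton.1 e, hr]

theorem val_snoc {R : List FS} (h : ∀ r ∈ R, Val n r) {r : FS} (hr : Val n r) :
    ∀ s ∈ R ++ [r], Val n s := fun s hs =>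
  (List.mem_append.1 hs).elim (h s) fun e => by rw [List.mem_singleton.1 e]; exact hr

theorem ev_certFS (hn : n ≤ 16) {R : List FS} (hR : ∀ r ∈ R, Val n r) {v : V} (hv : Kills n R v)
    (acc : FS) : ∀ c : Cert, ev n (certFS n R c acc) v = ev n acc v
  | [] => rfl
  | a :: c => by
    have e : certFS n R (a :: c) acc =
      mulFS n (toFS n a.1) (R.getD a.2 []) ++ certFS n R c acc := rfl
    rw [e, ev_append, ev_certFS hn hR hv acc c]
    have : Val n (R.getD a.2 []) ∧ ev n (R.getD a.2 []) v = 0 := by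
      rw [List.getD_eq_getElem?_getD]
      cases h : R[a.2]? with
      | none => exact ⟨val_nil, rfl⟩
      | some r => exact ⟨hR r (List.mem_of_getElem? h), hv r (List.mem_of_getElem? h)⟩
    rw [ev_mul hn this.1 v (val_toFS hn _), this.2, ev_zero, zero_add]

theorem chk_sound (hn : n ≤ 16) (hp : ∀ v : V, p • v = 0) (hp0 : p ≠ 0) {R : List FS}
    (hR : ∀ r ∈ R, Val n r) {v : V} (hv : Kills n R v) {t : FS} {c : Cert}
    (h : chk n p R t c = true) : ev n t v = 0 := by
  have := ev_of_isZ (n := n) hp h v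
  rwa [ev_certFS hn hR hv, ev_negFS hp hp0, neg_eq_zero] at this

theorem chkAll_sound (hn : n ≤ 16) (hp : ∀ v : V, p • v = 0) (hp0 : p ≠ 0) {R : List FS}
    (hR : ∀ r ∈ R, Val n r) {v : V} (hv : Kills n R v) {x : FS} (hx : Val n x) :
    ∀ (S : List FS) (cs : List Cert), (∀ r ∈ S, Val n r) → chkAll n p R x S cs = true →
      Kills n S (ev n x v)
  | [], _, _, _ => fun _ h => by simp at h
  | r :: S, cs, hS, h => by
    have e : chkAll n p R x (r :: S) cs =
      (chk n p R (mulFS n r x) (cs.headD []) && chkAll n p R x S cs.tail) := rfl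
    rw [e, Bool.and_eq_true] at h
    intro s hs
    rcases List.mem_cons.1 hs with rfl | hs
    · rw [← ev_mul hn hx v (hS _ List.mem_cons_self)]
      exact chk_sound hn hp hp0 hR hv h.1
    · exact chkAll_sound hn hp hp0 hR hv hx S _ (fun b hb => hS b (List.mem_cons_of_mem _ hb)) h.2 s hs

def Fct.Holds (n : ℕ) (V : Type*) [AddCommGroup V] [DistribMulAction (alternatingGroup (Fin n)) V]
    (f : Fct) : Prop :=
  ∀ v : V, Kills n (f.1.map (toFS n)) v → ev n (toFS n f.2) v = 0

theorem gw_powW (g : List ℕ) : ∀ k, gw n (powW g k) = gw n g ^ k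
  | 0 => by simp [powW, gw]
  | k + 1 => by
    have : powW g (k + 1) = g ++ powW g k := rfl
    rw [this, gw_append, gw_powW g k, pow_succ']

theorem eq_zero_of_unipotent {G : Type*} [Group G] [DistribMulAction G V] (hpp : p.Prime)
    (hp : ∀ v : V, p • v = 0) {g : G} {k : ℕ} (hg : g ^ p ^ k = 1) {W : V → Prop}
    (hW : ∀ v, W v → W (g • v - v)) (h0 : ∀ v, W v → g • v = v → v = 0) {v : V} (hv : W v) :
    v = 0 := by
  by_contra hne
  haveI : Nontrivial (AddMonoid.End V) :=
    ⟨⟨1, 0, fun e => hne (by simpa using DFunLike.congr_fun e v)⟩⟩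
  haveI := Fact.mk hpp
  haveI : CharP (AddMonoid.End V) p := (CharP.charP_iff_prime_eq_zero hpp).2 (by
    ext w; simpa using hp w)
  set f : AddMonoid.End V := DistribMulAction.toAddMonoidEnd G V g with hf
  have h1 : (f - 1) ^ p ^ k = 0 := by
    rw [sub_pow_char_pow_of_commute _ _ (Commute.one_right f), one_pow, hf, ← map_pow, hg, map_one,
      sub_self]
  have key : ∀ m : ℕ, W (((f - 1) ^ m : AddMonoid.End V) v) ∧ ((f - 1) ^ m : AddMonoid.End V) v ≠ 0 := by
    intro m
    induction m with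
    | zero => exact ⟨by simpa using hv, by simpa using hne⟩
    | succ m ih =>
      have e : ((f - 1) ^ (m + 1) : AddMonoid.End V) v =
          g • ((f - 1) ^ m : AddMonoid.End V) v - ((f - 1) ^ m : AddMonoid.End V) v := by
        rw [pow_succ']; rfl
      rw [e]
      exact ⟨hW _ ih.1, fun h => ih.2 (h0 _ ih.1 (sub_eq_zero.1 h))⟩
  exact (key (p ^ k)).2 (by rw [h1]; rfl)

theorem Prf.sound (hn : n ≤ 16) (hpp : p.Prime) (hp : ∀ v : V, p • v = 0) {F : List Fct}
    (hF : ∀ f ∈ F, f.Holds n V) : ∀ (P : Prf) (R : List FS) (goal : FS), (∀ r ∈ R, Val n r) →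
      P.ok n p F R goal = true → ∀ v : V, Kills n R v → ev n goal v = 0
  | .done c, R, goal, hR, h, v, hv => chk_sound hn hp hpp.ne_zero hR hv h
  | .lin t c nx, R, goal, hR, h, v, hv => by
    have e : (Prf.lin t c nx).ok n p F R goal =
      (chk n p R (toFS n t) c && nx.ok n p F (R ++ [toFS n t]) goal) := rfl
    rw [e, Bool.and_eq_true] at h
    exact Prf.sound hn hpp hp hF nx _ goal (val_snoc hR (val_toFS hn t)) h.2 v
      (hv.snoc (chk_sound hn hp hpp.ne_zero hR hv h.1))
  | .use i x cs nx, R, goal, hR, h, v, hv => by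
    have e : (Prf.use i x cs nx).ok n p F R goal =
      (chkAll n p R (toFS n x) ((F.getD i ([], [])).1.map (toFS n)) cs &&
        nx.ok n p F (R ++ [mulFS n (toFS n (F.getD i ([], [])).2) (toFS n x)]) goal) := rfl
    rw [e, Bool.and_eq_true] at h
    have hf : Fct.Holds n V (F.getD i ([], [])) := by
      rw [List.getD_eq_getElem?_getD]
      cases h : F[i]? with
      | none => exact fun _ _ => rfl
      | some r => exact hF r (List.mem_of_getElem? h)
    refine Prf.sound hn hpp hp hF nx _ goal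
      (val_snoc hR ((val_toFS hn x).mul hn (val_toFS hn _))) h.2 v (hv.snoc ?_)
    rw [ev_mul hn (val_toFS hn x) v (val_toFS hn _)]
    refine hf _ (chkAll_sound hn hp hpp.ne_zero hR hv (val_toFS hn x) _ cs ?_ h.1)
    intro r hr
    obtain ⟨b, -, rfl⟩ := List.mem_map.1 hr
    exact val_toFS hn b
  | .nil g k cs nx, R, goal, hR, h, v, hv => by
    have e : (Prf.nil g k cs nx).ok n p F R goal =
      (Nat.beq (cw n (powW g (p ^ k))) (onec n) && chkAll n p R [(1, cw n g)] R cs &&
        nx.ok n p F (R ++ [[(1, cw n g), (Nat.pred p, onec n)]]) (oneFS n)) := rfl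
    rw [e, Bool.and_eq_true, Bool.and_eq_true] at h
    have hg : gw n g ^ p ^ k = 1 := by
      rw [← gw_powW]
      exact code_inj hn (by rw [code_gw hn, code_one]; exact Nat.eq_of_beq_eq_true h.1.1)
    have hx : Val n [(1, cw n g)] := val_toFS hn [(1, g)]
    have hx' : Val n [(1, cw n g), (Nat.pred p, onec n)] := val_toFS hn [(1, g), (Nat.pred p, [])]
    have ex : ∀ w : V, ev n [(1, cw n g)] w = gw n g • w := fun w => by
      simp [ev, ← code_gw hn, dec_code hn]
    have : v = 0 := by
      refine eq_zero_of_unipotent hpp hp hg (W := Kills n R) ?_ ?_ hv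
      · intro w hw r hr
        have := chkAll_sound hn hp hpp.ne_zero hR hw hx R cs hR h.1.2 r hr
        rw [ex] at this
        rw [ev_sub, this, hw r hr, sub_zero]
      · intro w hw e
        rw [← ev_one hn w]
        refine Prf.sound hn hpp hp hF nx _ _ (val_snoc hR hx') h.2 w (hw.snoc ?_)
        have : [(1, cw n g), (Nat.pred p, onec n)] = [(1, cw n g)] ++ negFS p (oneFS n) := by
          simp [negFS, oneFS]
        rw [this, ev_append, ex, ev_negFS hp hpp.ne_zero, ev_one hn, e, add_neg_cancel]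
    rw [this, ev_zero]
  | .idem x cs c a b, R, goal, hR, h, v, hv => by
    have e : (Prf.idem x cs c a b).ok n p F R goal =
      (chkAll n p R (toFS n x) R cs &&
        chk n p R (mulFS n (toFS n x) (toFS n x) ++ negFS p (toFS n x)) c &&
        a.ok n p F (R ++ [toFS n x]) (oneFS n) &&
        b.ok n p F (R ++ [oneFS n ++ negFS p (toFS n x)]) (oneFS n)) := rfl
    rw [e, Bool.and_eq_true, Bool.and_eq_true, Bool.and_eq_true] at h
    have hx := val_toFS hn x
    have h1 := chkAll_sound hn hp hpp.ne_zero hR hv hx R cs hR h.1.1.1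
    have h2 := chk_sound hn hp hpp.ne_zero hR hv h.1.1.2
    rw [ev_append, ev_mul hn hx v hx, ev_negFS hp hpp.ne_zero] at h2
    have h3 : v - ev n (toFS n x) v = 0 := by
      rw [← ev_one hn (v - ev n (toFS n x) v)]
      refine Prf.sound hn hpp hp hF a _ _ (val_snoc hR hx) h.1.2 _ (Kills.snoc ?_ ?_)
      · intro r hr
        rw [ev_sub, hv r hr, h1 r hr, sub_zero]
      · rw [ev_sub, sub_eq_zero, eq_comm, ← sub_eq_zero, sub_eq_add_neg, h2]
    have : v = 0 := by
      rw [← ev_one hn v]
      refine Prf.sound hn hpp hp hF b _ _ (val_snoc hR (val_one.append hx.neg)) h.2 _ (hv.snoc ?_)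
      rw [ev_append, ev_one hn, ev_negFS hp hpp.ne_zero, ← sub_eq_add_neg, h3]
    rw [this, ev_zero]

theorem Fct.holds_of_ok (hn : n ≤ 16) (hpp : p.Prime) (hp : ∀ v : V, p • v = 0) {F : List Fct}
    (hF : ∀ f ∈ F, f.Holds n V) {f : Fct} {P : Prf} (h : f.ok n p F P = true) : f.Holds n V :=
  fun v hv => Prf.sound hn hpp hp hF P _ _ (fun r hr => by
    obtain ⟨b, -, rfl⟩ := List.mem_map.1 hr
    exact val_toFS hn b) h v hv

/-! ### Perfect subgroups -/

def subW (ks : List (List ℕ)) (u : List ℕ) : List ℕ := u.flatMap fun i => ks.getD i []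

/-- each word of `ks` is a commutator of words in `ks`, and the first one is not trivial -/
def perfOk (n : ℕ) (ks : List (List ℕ)) (cs : List (List ℕ × List ℕ)) : Bool :=
  !Nat.beq (cw n (ks.headD [])) (onec n) && (List.range ks.length).all fun i =>
    Nat.beq (cw n (ks.getD i [] ++ subW ks (cs.getD i ([], [])).2 ++ subW ks (cs.getD i ([], [])).1))
      (cw n (subW ks (cs.getD i ([], [])).1 ++ subW ks (cs.getD i ([], [])).2))

def fixF (p : ℕ) (ks : List (List ℕ)) : Fct := (ks.map fun k => [(1, k), (Nat.pred p, [])], [(1, [])])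

theorem gw_subW_mem {ks : List (List ℕ)} {H : Subgroup (alternatingGroup (Fin n))}
    (h : ∀ k ∈ ks, gw n k ∈ H) : ∀ u, gw n (subW ks u) ∈ H
  | [] => H.one_mem
  | i :: u => by
    have : subW ks (i :: u) = ks.getD i [] ++ subW ks u := by simp [subW]
    rw [this, gw_append]
    refine H.mul_mem ?_ (gw_subW_mem h u)
    rw [List.getD_eq_getElem?_getD]
    cases e : ks[i]? with
    | none => exact H.one_mem
    | some r => exact h r (List.mem_of_getElem? e)

theorem not_solvable_of_perfOk (hn : n ≤ 16) {ks : List (List ℕ)} {cs : List (List ℕ × List ℕ)}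
    (h : perfOk n ks cs = true) {H : Subgroup (alternatingGroup (Fin n))}
    (hH : ∀ k ∈ ks, gw n k ∈ H) : ¬ IsSolvable H := by
  intro hs
  obtain ⟨m, hm⟩ := hs.solvable
  rw [perfOk, Bool.and_eq_true, List.all_eq_true] at h
  have key : ∀ m, ∀ k ∈ ks, gw n k ∈ (derivedSeries H m).map H.subtype := by
    intro m
    induction m with
    | zero => intro k hk; exact ⟨⟨_, hH k hk⟩, Subgroup.mem_top _, rfl⟩
    | succ m ih =>
      intro k hk
      obtain ⟨i, hi, rfl⟩ := List.getElem_of_mem hk
      have e := gw_eq_of_cw hn (Nat.eq_of_beq_eq_true (h.2 i (List.mem_range.2 hi)))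
      rw [gw_append, gw_append, gw_append, List.getD_eq_getElem _ _ hi] at e
      rw [derivedSeries_succ, Subgroup.map_commutator]
      have := Subgroup.commutator_mem_commutator (gw_subW_mem ih (cs.getD i ([], [])).1)
        (gw_subW_mem ih (cs.getD i ([], [])).2)
      rwa [commutatorElement_def, ← e, mul_inv_cancel_right, mul_inv_cancel_right] at this
  have h1 : gw n (ks.headD []) = 1 := by
    cases ks with
    | nil => rfl
    | cons k ks =>
      have := key m k List.mem_cons_self
      rw [hm, Subgroup.map_bot] at this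
      exact this
  have h2 : cw n (ks.headD []) = onec n := by rw [← code_gw hn, h1, code_one]
  rw [h2, Nat.beq_refl] at h
  simp at h

theorem fixF_holds (hn : n ≤ 16) (hp : ∀ v : V, p • v = 0) (hp0 : p ≠ 0)
    (hV : ∀ v : V, v ≠ 0 → IsSolvable (MulAction.stabilizer (alternatingGroup (Fin n)) v))
    {ks : List (List ℕ)} {cs : List (List ℕ × List ℕ)} (h : perfOk n ks cs = true) :
    (fixF p ks).Holds n V := by
  intro v hv
  show ev n (oneFS n) v = 0
  rw [ev_one hn]
  by_contra hne
  refine not_solvable_of_perfOk hn h (fun k hk => ?_) (hV v hne)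
  have := hv (toFS n [(1, k), (Nat.pred p, [])]) (List.mem_map.2 ⟨_, List.mem_map.2 ⟨k, hk, rfl⟩, rfl⟩)
  have e : toFS n [(1, k), (Nat.pred p, [])] = [(1, cw n k)] ++ negFS p (oneFS n) := by
    simp [negFS, oneFS, toFS, cw]
  rw [e, ev_append, ev_negFS hp hp0, ev_one hn, ← sub_eq_add_neg, sub_eq_zero] at this
  simpa [ev, ← code_gw hn, dec_code hn] using this

theorem eq_zero_of_holds (hn : n ≤ 16) (h : Fct.Holds n V ([], [(1, [])])) (v : V) : v = 0 := by
  rw [← ev_one hn v]
  exact h v fun _ hr => by simp at hr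

end CfsgLib.GA
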